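import Mathlib

set_option autoImplicit false

namespace Cfsg.Agent.Lib.Helper10

open Polynomial in
theorem exists_eigen_aux {p : ℕ} [Fact p.Prime]
    {A : Type*} [CommGroup A] [Finite A] [Nontrivial A] [Module (ZMod p) (Additive A)]
    (σ : A →* A) (hσp : ∀ a, σ^[p] a = σ a) :
    ∃ (m : ℕ) (a : A), a ≠ 1 ∧ σ a = a ^ m := by
  let f : Additive A →ₗ[ZMod p] Additive A := (MonoidHom.toAdditive σ).toZModLinearMap p
  have hf : ∀ v : Additive A, f v = Additive.ofMul (σ v.toMul) := fun v => rfl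
  have hfiter : ∀ n : ℕ, ∀ v : Additive A, (f ^ n) v = Additive.ofMul (σ^[n] v.toMul) := by
    intro n
    induction n with
    | zero => intro v; rfl
    | succ n ih =>
      intro v
      rw [pow_succ', Module.End.mul_apply, ih, hf, Function.iterate_succ_apply']
      rfl
  have hfin : Module.Finite (ZMod p) (Additive A) := Module.Finite.of_finite
  have hfp : f ^ p = f := by
    ext v
    rw [hfiter, hσp]
    rfl
  have hdvd : minpoly (ZMod p) f ∣ (X ^ p - X : (ZMod p)[X]) := by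
    apply minpoly.dvd
    simp [hfp]
  have hne : (X ^ p - X : (ZMod p)[X]) ≠ 0 := by
    have := FiniteField.X_pow_card_sub_X_ne_zero (ZMod p) (Fact.out : p.Prime).one_lt
    simpa using this
  have hs : Splits (minpoly (ZMod p) f) := (GaloisField.splits_zmod_X_pow_sub_X p).of_dvd hne hdvd
  have hint : IsIntegral (ZMod p) f := Algebra.IsIntegral.isIntegral f
  obtain ⟨μ, hμ⟩ := hs.exists_eval_eq_zero (minpoly.degree_pos hint).ne'
  have hev : Module.End.HasEigenvalue f μ := Module.End.hasEigenvalue_of_isRoot hμ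
  obtain ⟨v, hv⟩ := hev.exists_hasEigenvector
  refine ⟨μ.val, v.toMul, ?_, ?_⟩
  · intro h
    exact hv.2 h
  · have h1 := hv.apply_eq_smul
    rw [hf] at h1
    have h2 : μ • v = μ.val • v := by
      rw [← Nat.cast_smul_eq_nsmul (ZMod p), ZMod.natCast_zmod_val]
    rw [h2] at h1
    exact h1

/-- An endomorphism `σ` with `σ^p = σ` of a nontrivial finite elementary abelian `p`-group has an eigenvector. -/
theorem exists_eigen {p : ℕ} [Fact p.Prime]
    {A : Type*} [CommGroup A] [Finite A] [Nontrivial A] (hAp : ∀ a : A, a ^ p = 1)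
    (σ : A →* A) (hσp : ∀ a, σ^[p] a = σ a) :
    ∃ (m : ℕ) (a : A), a ≠ 1 ∧ σ a = a ^ m :=
  @exists_eigen_aux p _ A _ _ _ (AddCommGroup.zmodModule (n := p) (by
    intro x
    exact hAp x.toMul)) σ hσp

/-- Ambient version. -/
theorem exists_eigen_conj {G : Type*} [Group G] [Finite G] {p : ℕ} [Fact p.Prime] (A : Subgroup G)
    (hAc : ∀ x ∈ A, ∀ y ∈ A, x * y = y * x)
    (hAp : ∀ a ∈ A, a ^ p = 1) (hAne : A ≠ ⊥)
    (x : G) (hx : ∀ a ∈ A, x * a * x⁻¹ ∈ A)
    (hxp : ∀ a ∈ A, x ^ (p - 1) * a * (x ^ (p - 1))⁻¹ = a) :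
    ∃ (m : ℕ) (a : G), a ∈ A ∧ a ≠ 1 ∧ x * a * x⁻¹ = a ^ m := by
  let _ : CommGroup A := { (inferInstance : Group A) with
    mul_comm := fun a b => Subtype.ext (hAc a a.2 b b.2) }
  have : Nontrivial A := (Subgroup.nontrivial_iff_ne_bot A).2 hAne
  let σ : A →* A := MonoidHom.mk' (fun a => ⟨x * a * x⁻¹, hx a a.2⟩) (by
    intro a b
    apply Subtype.ext
    simp [mul_assoc])
  have hσ : ∀ a : A, ((σ a : A) : G) = x * a * x⁻¹ := fun a => rfl
  have hiter : ∀ n : ℕ, ∀ a : A, ((σ^[n] a : A) : G) = x ^ n * a * (x ^ n)⁻¹ := by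
    intro n
    induction n with
    | zero => intro a; simp
    | succ n ih =>
      intro a
      rw [Function.iterate_succ_apply', hσ, ih, pow_succ']
      group
  obtain ⟨m, a, ha, hm⟩ := exists_eigen (p := p) (A := A) (fun a => Subtype.ext (hAp a a.2)) σ (by
    intro a
    apply Subtype.ext
    rw [hiter, hσ]
    have hp1 : p = (p - 1) + 1 := by
      have := (Fact.out : p.Prime).one_lt
      omega
    have h1 := hxp a a.2
    calc x ^ p * (a : G) * (x ^ p)⁻¹ = x * (x ^ (p - 1) * a * (x ^ (p - 1))⁻¹) * x⁻¹ := by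
          conv_lhs => rw [hp1, pow_succ']
          group
      _ = x * a * x⁻¹ := by rw [h1])
  refine ⟨m, a, a.2, ?_, ?_⟩
  · intro h
    exact ha (Subtype.ext h)
  · have := congrArg Subtype.val hm
    rw [hσ] at this
    exact this

end Cfsg.Agent.Lib.Helper10
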