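import Cfsg.Agent.Lib.Lead.Cores
import Cfsg.Prelude.Def_Local

set_option autoImplicit false

namespace Cfsg.Agent.Lib.Helper10.Gold76

open Cfsg Subgroup Cfsg.Agent.Lib.Lead

variable {X : Type*} [Group X] [Finite X] {p : ℕ} [Fact p.Prime]

theorem not_dvd_of_coprime {n : ℕ} (h : n.Coprime p) : ¬ p ∣ n := by
  intro hd
  have := Nat.Coprime.eq_one_of_dvd h.symm hd
  exact (Fact.out : p.Prime).one_lt.ne' this

theorem coprime_of_not_dvd {n : ℕ} (h : ¬ p ∣ n) : n.Coprime p :=
  ((Nat.Prime.coprime_iff_not_dvd Fact.out).mpr h).symm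

/-- a `p`-power not divisible by `p` is one -/
theorem relIndex_eq_one_of_pGroup {A B : Subgroup X} (hB : IsPGroup p B)
    (h : ¬ p ∣ A.relIndex B) : B ≤ A := by
  rw [← relIndex_eq_one]
  obtain ⟨n, hn⟩ := hB.index (A.subgroupOf B)
  have h1 : A.relIndex B = p ^ n := hn
  rw [h1] at h ⊢
  cases n with
  | zero => simp
  | succ n => exact absurd (dvd_pow_self p (Nat.succ_ne_zero n)) h

/-- `O_{p'}(X)` centralises every normal `p`-subgroup -/
theorem core_le_centralizer (H : Subgroup X) [H.Normal] (hHp : IsPGroup p H) :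
    pPrimeCore p X ≤ centralizer (H : Set X) := by
  have hdisj : pPrimeCore p X ⊓ H = ⊥ := by
    have h1 : IsPGroup p (pPrimeCore p X ⊓ H : Subgroup X) := hHp.to_le inf_le_right
    obtain ⟨n, hn⟩ := h1.exists_card_eq
    have h2 : (Nat.card (pPrimeCore p X ⊓ H : Subgroup X)).Coprime p :=
      Nat.Coprime.of_dvd_left (Subgroup.card_dvd_of_le inf_le_left) (card_pPrimeCore_coprime p)
    rw [hn] at h2
    cases n with
    | zero => rw [pow_zero] at hn; exact Subgroup.card_eq_one.1 hn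
    | succ n =>
      exact absurd (dvd_pow_self p (Nat.succ_ne_zero n)) (not_dvd_of_coprime h2)
  have h3 : ⁅pPrimeCore p X, H⁆ ≤ pPrimeCore p X ⊓ H := Subgroup.commutator_le_inf _ _
  rw [hdisj, le_bot_iff, Subgroup.commutator_eq_bot_iff_le_centralizer] at h3
  exact h3

/-- Burnside: if `H ⊓ C` is a Sylow subgroup of `C = C_X(H)` then `C ≤ H O_{p'}(X)` -/
theorem centralizer_le_sup (H C : Subgroup X) [C.Normal]
    (hC : C = centralizer (H : Set X)) (hHp : IsPGroup p H)
    (hZ : ¬ p ∣ H.relIndex C) : C ≤ H ⊔ pPrimeCore p X := by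
  have hZp : IsPGroup p (H.subgroupOf C) :=
    hHp.comap_of_injective C.subtype C.subtype_injective
  let P : Sylow p C := hZp.toSylow hZ
  have hPc : (P : Subgroup C) = H.subgroupOf C := rfl
  have hcen : normalizer ((P : Subgroup C) : Set C) ≤ centralizer ((P : Subgroup C) : Set C) := by
    intro c _
    rw [mem_centralizer_iff]
    intro z hz
    rw [SetLike.mem_coe, hPc, mem_subgroupOf] at hz
    have hc : (c : X) ∈ centralizer (H : Set X) := hC ▸ c.2
    rw [mem_centralizer_iff] at hc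
    exact Subtype.ext (hc _ hz)
  have hcompl := MonoidHom.ker_transferSylow_isComplement' P hcen
  set Y := (MonoidHom.transferSylow P hcen).ker with hY
  have hYcard : (Nat.card Y).Coprime p := by
    apply coprime_of_not_dvd
    have h1 := hcompl.index_eq_card
    rw [← h1]
    exact hZ
  have hYle : Y ≤ pPrimeCore p C := le_pPrimeCore inferInstance hYcard
  have hYM : Y.map C.subtype ≤ pPrimeCore p X :=
    (Subgroup.map_mono hYle).trans (pPrimeCore_normal_subgroup_le C)
  intro c hc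
  have htop := hcompl.sup_eq_top
  have hmem : (⟨c, hc⟩ : C) ∈ Y ⊔ (P : Subgroup C) := by rw [htop]; trivial
  have hmap : c ∈ (Y ⊔ (P : Subgroup C)).map C.subtype := ⟨⟨c, hc⟩, hmem, rfl⟩
  rw [Subgroup.map_sup] at hmap
  refine (sup_le (hYM.trans le_sup_right) ?_) hmap
  rw [hPc, Subgroup.subgroupOf_map_subtype]
  exact inf_le_left.trans le_sup_left

omit [Finite X] [Fact p.Prime] in
theorem le_comap_pCore {N A : Subgroup X} [N.Normal] [A.Normal]
    (h : ∀ a ∈ A, ∃ n : ℕ, a ^ (p ^ n) ∈ N) :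
    A ≤ (pCore p (X ⧸ N)).comap (QuotientGroup.mk' N) := by
  rw [← Subgroup.map_le_iff_le_comap]
  apply le_pCore (Subgroup.Normal.map inferInstance _ (QuotientGroup.mk'_surjective N))
  rintro ⟨y, a, ha, rfl⟩
  obtain ⟨n, hn⟩ := h a ha
  refine ⟨n, Subtype.ext ?_⟩
  show (QuotientGroup.mk' N a) ^ (p ^ n) = 1
  rw [← map_pow]
  exact (QuotientGroup.eq_one_iff _).2 hn

omit [Finite X] [Fact p.Prime] in
theorem pow_mem_of_mem_comap_pCore {N : Subgroup X} [N.Normal] {x : X}
    (hx : x ∈ (pCore p (X ⧸ N)).comap (QuotientGroup.mk' N)) : ∃ n : ℕ, x ^ (p ^ n) ∈ N := by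
  obtain ⟨n, hn⟩ := (pCore_isPGroup p (X ⧸ N)) ⟨QuotientGroup.mk' N x, hx⟩
  refine ⟨n, ?_⟩
  have h1 : (QuotientGroup.mk' N x) ^ (p ^ n) = 1 := congrArg Subtype.val hn
  rw [← map_pow] at h1
  exact (QuotientGroup.eq_one_iff _).1 h1

omit [Fact p.Prime] in
theorem sylow_inf_normal (S C : Subgroup X) [C.Normal] (hSi : ¬ p ∣ S.index) :
    ¬ p ∣ S.relIndex C := by
  have h1 := Subgroup.relIndex_mul_relIndex (S ⊓ C) S (S ⊔ C) inf_le_left le_sup_left
  have h2 := Subgroup.relIndex_mul_relIndex (S ⊓ C) C (S ⊔ C) inf_le_right le_sup_right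
  rw [Subgroup.inf_relIndex_left] at h1
  rw [Subgroup.inf_relIndex_right, Subgroup.relIndex_sup_right] at h2
  have h3 : C.relIndex S * S.relIndex (S ⊔ C) = C.relIndex S * S.relIndex C := by
    rw [h1, ← h2, mul_comm]
  have h4 : C.relIndex S ≠ 0 := by
    unfold Subgroup.relIndex
    exact Subgroup.index_ne_zero_of_finite
  have h5 := Nat.eq_of_mul_eq_mul_left (Nat.pos_of_ne_zero h4) h3
  have h6 := Subgroup.relIndex_mul_index (le_sup_left : S ≤ S ⊔ C)
  intro hd
  apply hSi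
  rw [← h6, h5]
  exact Dvd.dvd.mul_right hd _

theorem main (H C S : Subgroup X) [H.Normal] [C.Normal]
    (hC : C = centralizer (H : Set X)) (hSp : IsPGroup p S) (hSi : ¬ p ∣ S.index) (hHS : H ≤ S) :
    (H ≤ (pCore p (X ⧸ C)).comap (QuotientGroup.mk' C) ∧
      ¬ p ∣ H.relIndex ((pCore p (X ⧸ C)).comap (QuotientGroup.mk' C))) ↔
    (S ⊓ C ≤ H ∧ pPrimePCore p X = H ⊔ C) := by
  set K := (pCore p (X ⧸ C)).comap (QuotientGroup.mk' C) with hK
  set M := pPrimeCore p X with hM
  have hLdef : pPrimePCore p X = (pCore p (X ⧸ M)).comap (QuotientGroup.mk' M) := rfl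
  have hHp : IsPGroup p H := hSp.to_le hHS
  have hCK : C ≤ K := by
    intro c hc
    rw [hK, Subgroup.mem_comap]
    have : QuotientGroup.mk' C c = 1 := (QuotientGroup.eq_one_iff _).2 hc
    rw [this]; exact one_mem _
  have hpowH : ∀ a ∈ H, ∃ n : ℕ, a ^ (p ^ n) = 1 := by
    intro a ha
    obtain ⟨n, hn⟩ := hHp ⟨a, ha⟩
    exact ⟨n, congrArg Subtype.val hn⟩
  have hHK : H ≤ K := le_comap_pCore (fun a ha => by
    obtain ⟨n, hn⟩ := hpowH a ha
    exact ⟨n, hn ▸ one_mem _⟩)
  have hMC : M ≤ C := hC ▸ core_le_centralizer H hHp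
  have hLK : pPrimePCore p X ≤ K := by
    have : (pPrimePCore p X).Normal := by rw [hLdef]; infer_instance
    apply le_comap_pCore
    intro a ha
    obtain ⟨n, hn⟩ := pow_mem_of_mem_comap_pCore (N := M) ha
    exact ⟨n, hMC hn⟩
  have hHML : H ⊔ M ≤ pPrimePCore p X := by
    apply sup_le
    · rw [hLdef]
      exact le_comap_pCore (fun a ha => by
        obtain ⟨n, hn⟩ := hpowH a ha
        exact ⟨n, hn ▸ one_mem _⟩)
    · intro c hc
      rw [hLdef, Subgroup.mem_comap]
      have : QuotientGroup.mk' M c = 1 := (QuotientGroup.eq_one_iff _).2 hc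
      rw [this]; exact one_mem _
  constructor
  · rintro ⟨-, hnd⟩
    have ha : S ⊓ C ≤ H := by
      have hT : IsPGroup p ((S ⊓ C) ⊔ H : Subgroup X) := hSp.to_le (sup_le inf_le_left hHS)
      have hTK : (S ⊓ C) ⊔ H ≤ K := sup_le (inf_le_right.trans hCK) hHK
      have h1 := Subgroup.relIndex_mul_relIndex H ((S ⊓ C) ⊔ H) K le_sup_right hTK
      have h2 : ¬ p ∣ H.relIndex ((S ⊓ C) ⊔ H) := fun hd => hnd (h1 ▸ Dvd.dvd.mul_right hd _)
      exact le_sup_left.trans (relIndex_eq_one_of_pGroup hT h2)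
    have hb : K ≤ H ⊔ C := by
      have h0 : H ⊔ C = ((H ⊔ C).map (QuotientGroup.mk' C)).comap (QuotientGroup.mk' C) := by
        rw [Subgroup.comap_map_eq, QuotientGroup.ker_mk', sup_assoc, sup_idem]
      have h1 := Subgroup.relIndex_mul_relIndex H (H ⊔ C) K le_sup_left (sup_le hHK hCK)
      have h2 : ¬ p ∣ (H ⊔ C).relIndex K := fun hd => hnd (h1 ▸ Dvd.dvd.mul_left hd _)
      rw [h0, Subgroup.relIndex_comap] at h2
      have h3 : IsPGroup p (K.map (QuotientGroup.mk' C)) :=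
        (pCore_isPGroup p (X ⧸ C)).to_le (by rw [hK]; exact Subgroup.map_comap_le _ _)
      have h4 := relIndex_eq_one_of_pGroup h3 h2
      rw [h0, ← Subgroup.map_le_iff_le_comap]
      exact h4
    have hc : ¬ p ∣ H.relIndex C := by
      have h1 := Subgroup.relIndex_mul_relIndex H (C ⊔ H) K le_sup_right (sup_le hCK hHK)
      rw [Subgroup.relIndex_sup_right] at h1
      exact fun hd => hnd (h1 ▸ Dvd.dvd.mul_right hd _)
    have hd := centralizer_le_sup H C hC hHp hc
    refine ⟨ha, le_antisymm (hLK.trans hb) ?_⟩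
    exact (sup_le le_sup_left hd).trans hHML
  · rintro ⟨h1, h2⟩
    refine ⟨hHK, ?_⟩
    have h3 : H ⊓ C = S ⊓ C := le_antisymm (inf_le_inf_right C hHS) (le_inf h1 inf_le_right)
    have h4 : ¬ p ∣ H.relIndex C := by
      rw [← Subgroup.inf_relIndex_right, h3, Subgroup.inf_relIndex_right]
      exact sylow_inf_normal S C hSi
    have h5 := centralizer_le_sup H C hC hHp h4
    have h6 : K ≤ pPrimePCore p X := by
      rw [hLdef]
      apply le_comap_pCore
      intro k hk
      obtain ⟨n, hn⟩ := pow_mem_of_mem_comap_pCore (N := C) hk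
      have h7 : k ^ (p ^ n) ∈ pPrimePCore p X := hHML (h5 hn)
      obtain ⟨j, hj⟩ := pow_mem_of_mem_comap_pCore (N := M) h7
      refine ⟨n + j, ?_⟩
      rw [pow_add, pow_mul]
      exact hj
    have h8 : K ≤ M ⊔ H := by
      rw [sup_comm]
      exact h6.trans (h2 ▸ sup_le le_sup_left h5)
    have h9 := Subgroup.relIndex_mul_relIndex H K (M ⊔ H) hHK h8
    rw [Subgroup.relIndex_sup_right] at h9
    intro hd
    have h10 : p ∣ Nat.card M :=
      (Dvd.dvd.mul_right hd _).trans (h9 ▸ Subgroup.relIndex_dvd_card H M)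
    exact not_dvd_of_coprime (card_pPrimeCore_coprime p) h10

end Cfsg.Agent.Lib.Helper10.Gold76
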